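import Cfsg.Agent.H257.OZ.SuzFacts
import Cfsg.Agent.H672.OZ.Full
import Cfsg.Agent.H730.OZ.Asm
import Cfsg.Agent.H849.OZ.Bad
import Cfsg.Agent.H849.OZ.TFive
import Cfsg.Agent.H733.OZ.Good

/-!
# One vanishing class: `Suz` (helper257, S4842)

All centralizers have order at least 11; the order of the group and the primes 7, 11, 13 leave eight degrees, all even. A
rational element of order 8 with centralizer of order 32 must be a zero; the degree is then `± 1` modulo 25 squared.
-/

set_option autoImplicit false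
set_option maxRecDepth 100000

open Cfsg Cfsg.Agent.Characters Cfsg.Agent.H732.VZ Cfsg.Agent.H604.OZ Cfsg.Agent.H672.OZ Subgroup

namespace Cfsg.Agent.H257.OZ

universe u

theorem row_suz' [Finite Spor.Suz] : H730.OZ.Row Spor.Suz := by
  classical
  have hN : Nat.card Spor.Suz = 448345497600 := Cfsg.Agent.SporadicRecognition.SuzOrder.card_Suz
  have hs : IsSimpleGroup Spor.Suz := Cfsg.Agent.SporadicRecognition.SuzOrder.simple
  refine row_of fun χ x h => ?_
  have h11 : 11 ≤ cent x := SuzF.eleven_le x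
  have h4 : 4 ≤ cent x := by omega
  have hiso : ∀ r ∈ [7, 11, 13], charDegree (χ : Spor.Suz → ℂ) % r = 0 ∨
      charDegree (χ : Spor.Suz → ℂ) % r = 1 ∨ charDegree (χ : Spor.Suz → ℂ) % r = r - 1 := by
    intro r hr
    simp only [List.mem_cons, List.not_mem_nil, or_false] at hr
    rcases hr with rfl | rfl | rfl
    · have h1 := H733.OZ.pow_dvd h (r := 7) (n := 1) (by norm_num) (by rw [hN]; norm_num) (by rw [hN]; norm_num)
        (by rw [pow_one]; omega)
      rw [pow_one] at h1
      have h2 := one_lt_deg h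
      have h3 : ∀ d : ℕ, 1 < d → 7 ∣ d ^ 2 - 1 → d % 7 = 0 ∨ d % 7 = 1 ∨ d % 7 = 7 - 1 := by
        intro d hd hdv
        have h4 : 1 ≤ d ^ 2 := Nat.one_le_pow _ _ (by omega)
        have h5 : d ^ 2 % 7 = 1 := by omega
        have h6 : d ^ 2 % 7 = (d % 7) ^ 2 % 7 := Nat.pow_mod _ _ _
        have h7 : d % 7 < 7 := Nat.mod_lt _ (by norm_num)
        rw [h6] at h5
        generalize d % 7 = e at h5 h7
        interval_cases e <;> simp_all
      exact h3 _ h2 h1
    · obtain ⟨z, hz, hC⟩ := SuzF.eleven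
      rcases H849.OZ.iso (p := 11) (by norm_num) (by norm_num) (by rw [hN]; norm_num) (by rw [hN]; norm_num) hz hC h h4
        with h1 | h1 | h1
      · exact Or.inr (Or.inl h1)
      · exact Or.inr (Or.inr h1)
      · exact Or.inl (Nat.mod_eq_zero_of_dvd h1.1)
    · obtain ⟨z, hz, hC⟩ := SuzF.thirteen
      rcases H849.OZ.iso (p := 13) (by norm_num) (by norm_num) (by rw [hN]; norm_num) (by rw [hN]; norm_num) hz hC h h4
        with h1 | h1 | h1
      · exact Or.inr (Or.inl h1)
      · exact Or.inr (Or.inr h1)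
      · exact Or.inl (Nat.mod_eq_zero_of_dvd h1.1)
  have hm := mem_of_sieve h hN (l := [(2,13),(3,7),(5,2),(7,1),(11,1),(13,1)]) (by decide +kernel)
    (by
      intro x hx
      simp only [List.mem_cons, List.not_mem_nil, or_false] at hx
      rcases hx with rfl | rfl | rfl | rfl | rfl | rfl <;> norm_num)
    (by decide +kernel) h11 hiso (D := [1728, 2430, 792, 50688, 21384, 2640, 168960, 71280]) (by decide +kernel)
  have h2 : 2 ∣ charDegree (χ : Spor.Suz → ℂ) := by
    have key : ∀ d ∈ [1728, 2430, 792, 50688, 21384, 2640, 168960, 71280], 2 ∣ d := by decide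
    exact key _ hm
  obtain ⟨y, hy, hyC, hy3, hy5⟩ := SuzF.eight
  have hr8 := rat_eight hy hy3 hy5 (by rw [hN]; norm_num)
  have hyC' : cent y = 32 := hyC
  have hxy : IsConj x y := by
    by_contra hne
    have := H849.OZ.one_prime h Nat.prime_two h2 ⟨3, by rw [hy]; norm_num⟩ hr8 hne
    omega
  have hc : cent x = 32 := by rw [cent_eq_of_conj hxy, hyC']
  have h25 := H733.OZ.pow_dvd h (r := 5) (n := 2) (by norm_num) (by rw [hN]; norm_num) (by rw [hN]; norm_num)
    (by rw [hc]; norm_num)
  have key : ∀ d ∈ [1728, 2430, 792, 50688, 21384, 2640, 168960, 71280], ¬ 5 ^ 2 ∣ d ^ 2 - 1 := by decide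
  exact key _ hm h25

/-- **`Suz`.** -/
theorem row_suz {S : Type u} [Group S] [Finite S] (_hs : IsSimpleGroup S) (h : Spor.IsoSuz S) : H730.OZ.Row S := by
  obtain ⟨e⟩ := h
  have hfin : Finite Spor.Suz := Finite.of_equiv _ e.toEquiv
  exact H730.OZ.Row.congr e row_suz'

end Cfsg.Agent.H257.OZ
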